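-- Team project HUPT (S3360), package [FSTR] (helper92): a commutative subalgebra of End V with
-- all non-zero elements injective is a finite field acting on V.
import Cfsg.Agent.Lib.Helper50.HUPT.Defs

set_option autoImplicit false

universe u v

namespace Cfsg.Agent.Lib.Helper92.HUPT

open Cfsg.Agent.Lib.Helper50.HUPT

/-- Package [FSTR]. -/
theorem pkgFStr : PkgFStr.{u} := by
  intro q _ V _ _ _ _ K hK
  classical
  obtain ⟨hcomm, hinj⟩ := hK
  have hfinE : Finite (Module.End (ZMod q) V) :=
    Finite.of_injective (fun f : Module.End (ZMod q) V => (f : V → V)) DFunLike.coe_injective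
  have hfinK : Finite K := Finite.of_injective (fun f : K => (f : Module.End (ZMod q) V))
    Subtype.val_injective
  have hF : IsField K := by
    refine ⟨⟨0, 1, ?_⟩, ?_, ?_⟩
    · intro h
      obtain ⟨v, hv⟩ := exists_ne (0 : V)
      have h1 : ((0 : K) : Module.End (ZMod q) V) v = ((1 : K) : Module.End (ZMod q) V) v := by
        rw [h]
      simp at h1
      exact hv h1.symm
    · intro f g
      exact Subtype.ext (hcomm f.1 f.2 g.1 g.2)
    · intro f hf
      have hf1 : (f : Module.End (ZMod q) V) ≠ 0 := fun h => hf (Subtype.ext h)
      have hfi := hinj f.1 f.2 hf1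
      have hmi : Function.Injective (fun g : K => f * g) := by
        intro g g' hgg
        apply Subtype.ext
        apply LinearMap.ext
        intro v
        apply hfi
        have := congrArg (fun z : K => (z : Module.End (ZMod q) V) v) hgg
        simpa using this
      obtain ⟨g, hg⟩ := (Finite.injective_iff_surjective.1 hmi) 1
      exact ⟨g, hg⟩
  let _ : Field K := hF.toField
  let mK : Module K V := Module.compHom V (K.val.toRingHom)
  refine ⟨K, inferInstance, hfinK, mK, rfl, ?_, ?_⟩
  · intro c
    exact ⟨c.1, c.2, fun v => rfl⟩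
  · intro f hf
    exact ⟨⟨f, hf⟩, fun v => rfl⟩

end Cfsg.Agent.Lib.Helper92.HUPT
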