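-- Team project HUPT (S3360), package [XSYL] (helper92): a Sylow p-subgroup acts freely by
-- conjugation on the non-central elements of M, so its order divides |M : Z(M)| - 1.
import Cfsg.Agent.Lib.Helper50.HUPT.Defs

set_option autoImplicit false

universe u v

namespace Cfsg.Agent.Lib.Helper92.HUPT

open Cfsg.Agent.Lib.Helper50.HUPT

/-- An automorphism preserves non-centrality. -/
lemma not_center_map {M : Type v} [Group M] (φ : MulAut M) (a : M)
    (ha : a ∉ Subgroup.center M) : φ a ∉ Subgroup.center M := by
  intro h
  apply ha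
  rw [Subgroup.mem_center_iff] at h ⊢
  intro b
  apply φ.injective
  rw [map_mul, map_mul]
  exact h (φ b)

/-- Package [XSYL]. -/
theorem pkgXSyl : PkgXSyl.{v} := by
  intro G _ _ M p r hp hr hpr hMn hMr hFpf k hk
  classical
  have : Fact p.Prime := ⟨hp⟩
  have : Fact r.Prime := ⟨hr⟩
  let P : Sylow p G := default
  have hkP : p ^ k ∣ Nat.card (P : Subgroup G) := P.pow_dvd_card_of_pow_dvd_card hk
  refine dvd_trans hkP ?_
  -- the conjugation action of `P` on the non-central elements of `M`
  let S := {a : M // a ∉ Subgroup.center M}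
  let _ : MulAction (P : Subgroup G) S :=
    { smul := fun g a => ⟨MulAut.conjNormal (g : G) a.1, not_center_map _ _ a.2⟩
      one_smul := by
        intro a
        apply Subtype.ext
        show MulAut.conjNormal ((1 : (P : Subgroup G)) : G) a.1 = a.1
        simp
      mul_smul := by
        intro g h a
        apply Subtype.ext
        show MulAut.conjNormal ((g * h : (P : Subgroup G)) : G) a.1
          = MulAut.conjNormal (g : G) (MulAut.conjNormal (h : G) a.1)
        simp [map_mul] }
  have hsmul : ∀ (g : (P : Subgroup G)) (a : S),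
      (((g • a : S) : M) : G) = (g : G) * ((a : M) : G) * (g : G)⁻¹ := fun g a => rfl
  have hfree : ∀ a : S, MulAction.stabilizer (P : Subgroup G) a = ⊥ := by
    intro a
    rw [eq_bot_iff]
    intro g hg
    rw [Subgroup.mem_bot]
    by_contra hne
    have hga : (g : G) * ((a : M) : G) * (g : G)⁻¹ = ((a : M) : G) := by
      rw [← hsmul, MulAction.mem_stabilizer_iff.mp hg]
    have hcomm : Commute (g : G) ((a : M) : G) := by
      show (g : G) * _ = _ * (g : G)
      calc (g : G) * ((a : M) : G) = (g : G) * ((a : M) : G) * (g : G)⁻¹ * g := by group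
        _ = ((a : M) : G) * g := by rw [hga]
    have hgne : (g : G) ≠ 1 := fun h => hne (Subtype.ext h)
    obtain ⟨j, hj⟩ := P.isPGroup' g
    have hord : orderOf (g : G) ∣ p ^ j := by
      apply orderOf_dvd_of_pow_eq_one
      have := congrArg Subtype.val hj
      simpa using this
    obtain ⟨m, hm, hm'⟩ := (Nat.dvd_prime_pow hp).1 hord
    have hm0 : m ≠ 0 := by
      rintro rfl
      rw [pow_zero, orderOf_eq_one_iff] at hm'
      exact hgne hm'
    have hpd : p ∣ orderOf (g : G) := by
      rw [hm']
      exact dvd_pow_self p hm0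
    have hy : orderOf ((g : G) ^ (orderOf (g : G) / p)) = p :=
      orderOf_pow_orderOf_div (by rw [hm']; exact pow_ne_zero _ hp.ne_zero) hpd
    have hya : Commute ((g : G) ^ (orderOf (g : G) / p)) ((a : M) : G) := hcomm.pow_left _
    have hcm : cm ((g : G) ^ (orderOf (g : G) / p)) ((a : M) : G) = 1 := by
      unfold cm
      rw [hya.eq]
      group
    have hcen := hFpf _ hy ((a : M) : G) (a : M).2 (fun b _ => by rw [hcm, one_mul, mul_one])
    apply a.2
    rw [Subgroup.mem_center_iff]
    intro b
    apply Subtype.ext
    exact (hcen b b.2).symm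
  have hcardS : Nat.card S = Nat.card (Quotient (MulAction.orbitRel (P : Subgroup G) S))
      * Nat.card (P : Subgroup G) := by
    rw [Nat.card_congr (MulAction.selfEquivOrbitsQuotientProd hfree), Nat.card_prod]
  have hS2 : Nat.card (Subgroup.center M) + Nat.card S = Nat.card M := by
    rw [← Nat.card_sum]
    exact Nat.card_congr (Equiv.sumCompl (fun a : M => a ∈ Subgroup.center M))
  have hidx := Subgroup.card_mul_index (Subgroup.center M)
  have hS3 : Nat.card S = Nat.card (Subgroup.center M) * ((Subgroup.center M).index - 1) := by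
    rw [Nat.mul_sub, mul_one, hidx]
    omega
  have hdvd : Nat.card (P : Subgroup G)
      ∣ Nat.card (Subgroup.center M) * ((Subgroup.center M).index - 1) := by
    rw [← hS3, hcardS]
    exact dvd_mul_left _ _
  obtain ⟨a, ha⟩ := IsPGroup.iff_card.mp P.isPGroup'
  obtain ⟨b, hb⟩ := IsPGroup.iff_card.mp (hMr.to_subgroup (Subgroup.center M))
  have hcop : Nat.Coprime (Nat.card (P : Subgroup G)) (Nat.card (Subgroup.center M)) := by
    rw [hb]
    have ha' : Nat.card (P : Subgroup G) = p ^ a := ha
    rw [ha']
    exact Nat.Coprime.pow _ _ ((Nat.coprime_primes hp hr).2 hpr)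
  exact hcop.dvd_of_dvd_mul_left hdvd

end Cfsg.Agent.Lib.Helper92.HUPT
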